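import Groth.Agent.Sga7.H560.QCov
import Groth.Agent.Etdl.H428.SmLim

/-!
# `Spec k[ℚ] ⟶ Spec k[ℤ]` is a directed limit of étale morphisms

`isSmLim_tt`: in the form `Groth.Agent.Etdl.H428.SmLim.IsSmLim`.
-/

set_option autoImplicit false
set_option backward.isDefEq.respectTransparency.types false
universe u

open CategoryTheory CategoryTheory.Limits AlgebraicGeometry Opposite

namespace Groth.Agent.Sga7.H560.QCov

open Groth.Agent.Sga7.H763.Dia Groth.Agent.Sga7.H560.QAlg
open Groth.Agent.Etdl.H428.SmLim

variable (k : Type u) [Field k]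

/-- The system over `Spec k[ℤ]`. -/
noncomputable def DD : (ULift.{u} ℕ)ᵒᵖ ⥤ Over (D k ℤ) where
  obj a := Over.mk (ττ k a)
  map {_ _} h := Over.homMk ((TT k).map h) (hτ_aux k (ULift.down_le.2 h.unop.le))
  map_id a := by
    apply Over.OverMorphism.ext
    exact (TT k).map_id a
  map_comp f g := by
    apply Over.OverMorphism.ext
    exact (TT k).map_comp f g

theorem isSmLim_tt [CharZero k] : IsSmLim (Dm k (Int.castAddHom ℚ)) := by
  refine isSmLim_mk _ (ι := ULift.{u} ℕ) (DD k) (cc k)
    (Etcore.PullbackLim.isLimitSpecCone _ _ (nonempty_isColimit k).some) (Iso.refl _) ?_ ?_ ?_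
  · intro a
    have : Etale (ττ k a) := etale_Dm_ι k a.unop.down
    change Smooth (ττ k a)
    infer_instance
  · intro a b h
    change IsAffineHom ((TT k).map h)
    infer_instance
  · intro a
    exact (Category.id_comp _).trans (ht_aux k a.unop.down)

end Groth.Agent.Sga7.H560.QCov
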